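import Mathlib.GroupTheory.Nilpotent
import Mathlib.GroupTheory.QuotientGroup.Basic
import Mathlib.Algebra.DirectSum.Basic
import Mathlib.Algebra.Lie.Basic
import Mathlib.Algebra.Group.TypeTags.Hom

set_option autoImplicit false

/-! The associated Lie ring of the lower central series of a group. -/

namespace Cfsg.Agent.Lib.Kreknin

open scoped commutatorElement

universe u

variable (G : Type u) [Group G]

/-- The lower central series. -/
abbrev gam (k : ℕ) : Subgroup G := (⊤ : Subgroup G).lowerCentralSeries k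

variable {G}

theorem gam_succ (k : ℕ) : gam G (k + 1) = ⁅gam G k, ⊤⁆ := rfl

theorem gam_antitone {i j : ℕ} (h : i ≤ j) : gam G j ≤ gam G i := (⊤ : Subgroup G).lowerCentralSeries_antitone h

theorem comm_mem_succ {k : ℕ} {a : G} (ha : a ∈ gam G k) (b : G) : ⁅a, b⁆ ∈ gam G (k + 1) :=
  Subgroup.commutator_mem_commutator ha (Subgroup.mem_top b)

/-- The three subgroups lemma relative to a normal subgroup. -/
theorem three_subgroups {H1 H2 H3 N : Subgroup G} [N.Normal] (h1 : ⁅⁅H2, H3⁆, H1⁆ ≤ N) (h2 : ⁅⁅H3, H1⁆, H2⁆ ≤ N) :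
    ⁅⁅H1, H2⁆, H3⁆ ≤ N := by
  have key : ∀ A B C : Subgroup G, ⁅⁅A, B⁆, C⁆ ≤ N ↔ ⁅⁅A.map (QuotientGroup.mk' N), B.map (QuotientGroup.mk' N)⁆,
      C.map (QuotientGroup.mk' N)⁆ = ⊥ := fun A B C => by
    rw [← Subgroup.map_commutator, ← Subgroup.map_commutator, Subgroup.map_eq_bot_iff, QuotientGroup.ker_mk']
  rw [key] at h1 h2 ⊢
  exact Subgroup.commutator_commutator_eq_bot_of_rotate h1 h2

theorem commutator_gam_le (j : ℕ) : ∀ i, ⁅gam G i, gam G j⁆ ≤ gam G (i + j + 1) := by
  induction j with
  | zero => exact fun i => le_of_eq rfl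
  | succ j ih =>
    intro i
    rw [Subgroup.commutator_comm, gam_succ j]
    refine three_subgroups ?_ ?_
    · rw [Subgroup.commutator_comm ⊤ (gam G i), ← gam_succ]
      exact (ih (i + 1)).trans (le_of_eq (by rw [show i + 1 + j + 1 = i + (j + 1) + 1 by omega]))
    · refine (Subgroup.commutator_mono (ih i) le_rfl).trans (le_of_eq ?_)
      rw [← gam_succ, show i + j + 1 + 1 = i + (j + 1) + 1 by omega]

theorem comm_mem {i j : ℕ} {a b : G} (ha : a ∈ gam G i) (hb : b ∈ gam G j) : ⁅a, b⁆ ∈ gam G (i + j + 1) :=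
  commutator_gam_le j i (Subgroup.commutator_mem_commutator ha hb)

instance layer_normal (k : ℕ) : ((gam G (k + 1)).subgroupOf (gam G k)).Normal := inferInstance

/-- The factors of the lower central series. -/
abbrev Factor (G : Type u) [Group G] (k : ℕ) : Type u := gam G k ⧸ (gam G (k + 1)).subgroupOf (gam G k)

instance factorCommGroup (k : ℕ) : CommGroup (Factor G k) :=
  { (inferInstance : Group (Factor G k)) with
    mul_comm := fun a b => by
      induction a using QuotientGroup.induction_on with | _ a =>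
      induction b using QuotientGroup.induction_on with | _ b =>
      rw [← QuotientGroup.mk_mul, ← QuotientGroup.mk_mul, QuotientGroup.eq, Subgroup.mem_subgroupOf]
      have h : ((a * b)⁻¹ * (b * a) : gam G k) = ⁅b⁻¹, a⁻¹⁆ := by rw [commutatorElement_def]; group
      rw [h]
      exact comm_mem_succ (b⁻¹).2 _ }

/-- The associated Lie ring. -/
abbrev Assoc (G : Type u) [Group G] : Type u := DirectSum ℕ (fun k => Additive (Factor G k))

open Classical in
/-- The class of a group element in a given layer. -/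
noncomputable def cls (k : ℕ) (g : G) : Assoc G :=
  if h : g ∈ gam G k then DirectSum.of (fun k => Additive (Factor G k)) k (Additive.ofMul ((⟨g, h⟩ : gam G k) : Factor G k))
  else 0

theorem cls_of_mem {k : ℕ} (g : gam G k) :
    cls k (g : G) = DirectSum.of (fun k => Additive (Factor G k)) k (Additive.ofMul (g : Factor G k)) := by
  rw [cls, dif_pos g.2]

theorem cls_mul {k : ℕ} {g h : G} (hg : g ∈ gam G k) (hh : h ∈ gam G k) : cls k (g * h) = cls k g + cls k h := by
  rw [show cls k (g * h) = cls k ((⟨g, hg⟩ * ⟨h, hh⟩ : gam G k) : G) from rfl, cls_of_mem,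
    show cls k g = cls k ((⟨g, hg⟩ : gam G k) : G) from rfl, cls_of_mem,
    show cls k h = cls k ((⟨h, hh⟩ : gam G k) : G) from rfl, cls_of_mem, ← map_add, QuotientGroup.mk_mul, ofMul_mul]

theorem cls_eq_zero_iff {k : ℕ} {g : G} (hg : g ∈ gam G k) : cls k g = 0 ↔ g ∈ gam G (k + 1) := by
  rw [show cls k g = cls k ((⟨g, hg⟩ : gam G k) : G) from rfl, cls_of_mem]
  constructor
  · intro h
    have h1 : Additive.ofMul ((⟨g, hg⟩ : gam G k) : Factor G k) = 0 :=
      DirectSum.of_injective k (h.trans (map_zero _).symm)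
    exact (QuotientGroup.eq_one_iff (⟨g, hg⟩ : gam G k)).mp h1
  · intro h
    rw [(QuotientGroup.eq_one_iff (⟨g, hg⟩ : gam G k)).mpr h, ofMul_one, map_zero]

theorem cls_one (k : ℕ) : cls k (1 : G) = 0 := (cls_eq_zero_iff (one_mem _)).mpr (one_mem _)

theorem cls_inv {k : ℕ} {g : G} (hg : g ∈ gam G k) : cls k g⁻¹ = - cls k g :=
  eq_neg_of_add_eq_zero_left (by rw [← cls_mul (inv_mem hg) hg, inv_mul_cancel, cls_one])

theorem cls_pow {k : ℕ} {g : G} (hg : g ∈ gam G k) : ∀ n : ℕ, cls k (g ^ n) = n • cls k g
  | 0 => by rw [pow_zero, cls_one, zero_smul]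
  | n + 1 => by rw [pow_succ, cls_mul (pow_mem hg n) hg, cls_pow hg n, succ_nsmul]

theorem cls_conj {k : ℕ} {g : G} (hg : g ∈ gam G k) (a : G) : cls k (a * g * a⁻¹) = cls k g := by
  have h : ⁅g⁻¹, a⁆ ∈ gam G (k + 1) := comm_mem_succ (inv_mem hg) a
  rw [show a * g * a⁻¹ = g * ⁅g⁻¹, a⁆ by rw [commutatorElement_def]; group, cls_mul hg (gam_antitone k.le_succ h),
    (cls_eq_zero_iff (gam_antitone k.le_succ h)).mpr h, add_zero]

theorem cls_comm_mul_right {i j : ℕ} {a b b' : G} (ha : a ∈ gam G i) (hb : b ∈ gam G j) (hb' : b' ∈ gam G j) :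
    cls (i + j + 1) ⁅a, b * b'⁆ = cls (i + j + 1) ⁅a, b⁆ + cls (i + j + 1) ⁅a, b'⁆ := by
  rw [commutatorElement_mul_right_eq_mul_conj, show ⁅a, b⁆ * b * ⁅a, b'⁆ * b⁻¹ = ⁅a, b⁆ * (b * ⁅a, b'⁆ * b⁻¹) by group,
    cls_mul (comm_mem ha hb) ((inferInstance : (gam G (i + j + 1)).Normal).conj_mem _ (comm_mem ha hb') b),
    cls_conj (comm_mem ha hb')]

theorem cls_comm_mul_left {i j : ℕ} {a a' b : G} (ha : a ∈ gam G i) (ha' : a' ∈ gam G i) (hb : b ∈ gam G j) :
    cls (i + j + 1) ⁅a * a', b⁆ = cls (i + j + 1) ⁅a, b⁆ + cls (i + j + 1) ⁅a', b⁆ := by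
  rw [commutatorElement_mul_left_eq_conj_mul,
    cls_mul ((inferInstance : (gam G (i + j + 1)).Normal).conj_mem _ (comm_mem ha' hb) a) (comm_mem ha hb),
    cls_conj (comm_mem ha' hb), add_comm]

/-- Bracketing with a fixed element on one factor. -/
noncomputable def brRight (i j : ℕ) (a : gam G i) : Additive (Factor G j) →+ Assoc G :=
  MonoidHom.toAdditiveLeft (QuotientGroup.lift ((gam G (j + 1)).subgroupOf (gam G j))
    ({ toFun := fun b => Multiplicative.ofAdd (cls (i + j + 1) ⁅(a : G), (b : G)⁆)
       map_one' := by rw [Subgroup.coe_one, commutatorElement_one_right, cls_one, ofAdd_zero]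
       map_mul' := fun b b' => by rw [Subgroup.coe_mul, cls_comm_mul_right a.2 b.2 b'.2, ofAdd_add] } :
        gam G j →* Multiplicative (Assoc G))
    (fun b hb => by
      rw [MonoidHom.mem_ker]
      show Multiplicative.ofAdd _ = 1
      rw [(cls_eq_zero_iff (comm_mem a.2 b.2)).mpr, ofAdd_zero]
      have h1 := comm_mem a.2 (Subgroup.mem_subgroupOf.mp hb)
      rwa [show i + (j + 1) + 1 = i + j + 1 + 1 by omega] at h1))

theorem brRight_apply (i j : ℕ) (a : gam G i) (b : gam G j) :
    brRight i j a (Additive.ofMul (b : Factor G j)) = cls (i + j + 1) ⁅(a : G), (b : G)⁆ := rfl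

/-- Bracketing with a fixed element. -/
noncomputable def brElem (i : ℕ) (a : gam G i) : Assoc G →+ Assoc G := DirectSum.toAddMonoid fun j => brRight i j a

theorem brElem_cls (i : ℕ) (a : gam G i) {j : ℕ} {b : G} (hb : b ∈ gam G j) :
    brElem i a (cls j b) = cls (i + j + 1) ⁅(a : G), b⁆ := by
  rw [show cls j b = cls j ((⟨b, hb⟩ : gam G j) : G) from rfl, cls_of_mem, brElem, DirectSum.toAddMonoid_of,
    brRight_apply]

theorem addHom_ext {M : Type*} [AddCommMonoid M] {f g : Assoc G →+ M}
    (h : ∀ k, ∀ x ∈ gam G k, f (cls k x) = g (cls k x)) : f = g := by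
  refine DirectSum.addHom_ext fun k y => ?_
  obtain ⟨x, hx⟩ := QuotientGroup.mk_surjective y.toMul
  have := h k x x.2
  rwa [cls_of_mem, hx] at this

/-- The bracket. -/
noncomputable def brHom : Assoc G →+ Assoc G →+ Assoc G :=
  DirectSum.toAddMonoid fun i =>
    MonoidHom.toAdditiveLeft (QuotientGroup.lift ((gam G (i + 1)).subgroupOf (gam G i))
      ({ toFun := fun a => Multiplicative.ofAdd (brElem i a)
         map_one' := by
           rw [← ofAdd_zero]
           congr 1
           refine addHom_ext fun j b hb => ?_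
           rw [brElem_cls i 1 hb, Subgroup.coe_one, commutatorElement_one_left, cls_one]
           rfl
         map_mul' := fun a a' => by
           rw [← ofAdd_add]
           congr 1
           refine addHom_ext fun j b hb => ?_
           rw [AddMonoidHom.add_apply, brElem_cls i _ hb, brElem_cls i _ hb, brElem_cls i _ hb, Subgroup.coe_mul,
             cls_comm_mul_left a.2 a'.2 hb] } : gam G i →* Multiplicative (Assoc G →+ Assoc G))
      (fun a ha => by
        rw [MonoidHom.mem_ker]
        show Multiplicative.ofAdd _ = 1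
        rw [← ofAdd_zero]
        congr 1
        refine addHom_ext fun j b hb => ?_
        rw [brElem_cls i _ hb, AddMonoidHom.zero_apply, cls_eq_zero_iff (comm_mem a.2 hb)]
        have h1 := comm_mem (Subgroup.mem_subgroupOf.mp ha) hb
        rwa [show i + 1 + j + 1 = i + j + 1 + 1 by omega] at h1))

theorem brHom_cls {i j : ℕ} {a b : G} (ha : a ∈ gam G i) (hb : b ∈ gam G j) :
    brHom (cls i a) (cls j b) = cls (i + j + 1) ⁅a, b⁆ := by
  rw [show cls i a = cls i ((⟨a, ha⟩ : gam G i) : G) from rfl, cls_of_mem, brHom, DirectSum.toAddMonoid_of]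
  exact brElem_cls i ⟨a, ha⟩ hb

theorem assoc_induction {P : Assoc G → Prop} (x : Assoc G) (h0 : P 0) (hcls : ∀ k, ∀ g ∈ gam G k, P (cls k g))
    (hadd : ∀ x y, P x → P y → P (x + y)) : P x := by
  induction x using DirectSum.induction_on with
  | zero => exact h0
  | of k y =>
    obtain ⟨g, hg⟩ := QuotientGroup.mk_surjective y.toMul
    have := hcls k g g.2
    rwa [cls_of_mem, hg] at this
  | add x y hx hy => exact hadd x y hx hy

theorem brHom_skew (x y : Assoc G) : brHom x y + brHom y x = 0 := by
  induction x using assoc_induction with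
  | h0 => rw [map_zero, AddMonoidHom.zero_apply, map_zero, add_zero]
  | hadd u v hu hv =>
    rw [map_add, AddMonoidHom.add_apply, map_add, add_add_add_comm, hu, hv, add_zero]
  | hcls i a ha =>
    induction y using assoc_induction with
    | h0 => rw [map_zero, map_zero, AddMonoidHom.zero_apply, add_zero]
    | hadd u v hu hv => rw [map_add, map_add, AddMonoidHom.add_apply, add_add_add_comm, hu, hv, add_zero]
    | hcls j b hb =>
      rw [brHom_cls ha hb, brHom_cls hb ha, show j + i + 1 = i + j + 1 by omega, ← commutatorElement_inv a b,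
        cls_inv (comm_mem ha hb), add_neg_cancel]

theorem brHom_self (x : Assoc G) : brHom x x = 0 := by
  induction x using assoc_induction with
  | h0 => rw [map_zero]
  | hadd u v hu hv =>
    simp only [map_add, AddMonoidHom.add_apply, hu, hv, zero_add, add_zero]
    rw [add_comm]
    exact brHom_skew _ _
  | hcls i a ha => rw [brHom_cls ha ha, commutatorElement_self, cls_one]

theorem brHom_jacobi (x y z : Assoc G) : brHom x (brHom y z) + brHom y (brHom z x) + brHom z (brHom x y) = 0 := by
  induction x using assoc_induction with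
  | h0 => simp
  | hadd u v hu hv =>
    simp only [map_add, AddMonoidHom.add_apply]
    rw [← add_zero (0 : Assoc G)]
    nth_rewrite 1 [← hu]
    rw [← hv]
    abel
  | hcls i a ha =>
    induction y using assoc_induction with
    | h0 => simp
    | hadd u v hu hv =>
      simp only [map_add, AddMonoidHom.add_apply]
      rw [← add_zero (0 : Assoc G)]
      nth_rewrite 1 [← hu]
      rw [← hv]
      abel
    | hcls j b hb =>
      induction z using assoc_induction with
      | h0 => simp
      | hadd u v hu hv =>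
        simp only [map_add, AddMonoidHom.add_apply]
        rw [← add_zero (0 : Assoc G)]
        nth_rewrite 1 [← hu]
        rw [← hv]
        abel
      | hcls k c hc =>
        rw [brHom_cls hb hc, brHom_cls hc ha, brHom_cls ha hb, brHom_cls ha (comm_mem hb hc),
          brHom_cls hb (comm_mem hc ha), brHom_cls hc (comm_mem ha hb),
          show j + (k + i + 1) + 1 = i + (j + k + 1) + 1 by omega,
          show k + (i + j + 1) + 1 = i + (j + k + 1) + 1 by omega]
        have hn : ∀ {n : ℕ} {g : G}, g ∈ gam G n → ∀ d : G, d * g * d⁻¹ ∈ gam G n := fun hg d =>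
          (inferInstance : (gam G _).Normal).conj_mem _ hg d
        -- conjugates have the same classes
        have e1 : ∀ {p q : ℕ} {g h : G} (d : G), g ∈ gam G p → h ∈ gam G q →
            cls (p + q + 1) ⁅d * g * d⁻¹, h⁆ = cls (p + q + 1) ⁅g, h⁆ := by
          intro p q g h d hg hh
          rw [← brHom_cls (hn hg d) hh, ← brHom_cls hg hh, cls_conj hg]
        have hid := commutatorElement_conj_commutatorElement_mul a b c
        have m1 : ⁅a * b * a⁻¹, ⁅c, a⁆⁆ ∈ gam G (i + (j + k + 1) + 1) := by
          have := comm_mem (hn hb a) (comm_mem hc ha)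
          rwa [show j + (k + i + 1) + 1 = i + (j + k + 1) + 1 by omega] at this
        have m2 : ⁅c * a * c⁻¹, ⁅b, c⁆⁆ ∈ gam G (i + (j + k + 1) + 1) := comm_mem (hn ha c) (comm_mem hb hc)
        have m3 : ⁅b * c * b⁻¹, ⁅a, b⁆⁆ ∈ gam G (i + (j + k + 1) + 1) := by
          have := comm_mem (hn hc b) (comm_mem ha hb)
          rwa [show k + (i + j + 1) + 1 = i + (j + k + 1) + 1 by omega] at this
        have h0 := congrArg (cls (i + (j + k + 1) + 1)) hid
        rw [cls_mul (mul_mem m1 m2) m3, cls_mul m1 m2, cls_one, e1 c ha (comm_mem hb hc)] at h0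
        have q1 := e1 a hb (comm_mem hc ha)
        have q3 := e1 b hc (comm_mem ha hb)
        rw [show j + (k + i + 1) + 1 = i + (j + k + 1) + 1 by omega] at q1
        rw [show k + (i + j + 1) + 1 = i + (j + k + 1) + 1 by omega] at q3
        rw [q1, q3] at h0
        rw [← h0]
        abel

noncomputable instance : Bracket (Assoc G) (Assoc G) := ⟨fun x y => brHom x y⟩

theorem bracket_eq (x y : Assoc G) : ⁅x, y⁆ = brHom x y := rfl

noncomputable instance assocLieRing : LieRing (Assoc G) where
  add_lie x y z := by rw [bracket_eq, bracket_eq, bracket_eq, map_add, AddMonoidHom.add_apply]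
  lie_add x y z := by rw [bracket_eq, bracket_eq, bracket_eq, map_add]
  lie_self x := brHom_self x
  leibniz_lie x y z := by
    simp only [bracket_eq]
    have h := brHom_jacobi x y z
    have h1 : brHom y (brHom z x) = - brHom y (brHom x z) := by
      rw [← map_neg, eq_neg_of_add_eq_zero_left (brHom_skew z x)]
    rw [h1, eq_neg_of_add_eq_zero_left (brHom_skew z (brHom x y))] at h
    rw [← sub_eq_zero, ← h]
    abel

theorem lie_cls {i j : ℕ} {a b : G} (ha : a ∈ gam G i) (hb : b ∈ gam G j) :
    ⁅cls i a, cls j b⁆ = cls (i + j + 1) ⁅a, b⁆ := brHom_cls ha hb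

theorem apply_mem_gam (α : MulAut G) {k : ℕ} {g : G} (hg : g ∈ gam G k) : α g ∈ gam G k :=
  (Subgroup.characteristic_iff_map_le.mp inferInstance α) (Subgroup.mem_map_of_mem α.toMonoidHom hg)

/-- The map induced by an automorphism. -/
noncomputable def assocMap (α : MulAut G) : Assoc G →+ Assoc G :=
  DirectSum.toAddMonoid fun k =>
    MonoidHom.toAdditiveLeft (QuotientGroup.lift ((gam G (k + 1)).subgroupOf (gam G k))
      ({ toFun := fun g => Multiplicative.ofAdd (cls k (α (g : G)))
         map_one' := by rw [Subgroup.coe_one, map_one, cls_one, ofAdd_zero]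
         map_mul' := fun g h => by
           rw [Subgroup.coe_mul, map_mul, cls_mul (apply_mem_gam α g.2) (apply_mem_gam α h.2), ofAdd_add] } :
        gam G k →* Multiplicative (Assoc G))
      (fun g hg => by
        rw [MonoidHom.mem_ker]
        show Multiplicative.ofAdd _ = 1
        rw [(cls_eq_zero_iff (apply_mem_gam α g.2)).mpr (apply_mem_gam α (Subgroup.mem_subgroupOf.mp hg)), ofAdd_zero]))

theorem assocMap_cls (α : MulAut G) {k : ℕ} {g : G} (hg : g ∈ gam G k) : assocMap α (cls k g) = cls k (α g) := by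
  rw [show cls k g = cls k ((⟨g, hg⟩ : gam G k) : G) from rfl, cls_of_mem, assocMap, DirectSum.toAddMonoid_of]
  rfl

theorem assocMap_lie (α : MulAut G) (x y : Assoc G) : assocMap α ⁅x, y⁆ = ⁅assocMap α x, assocMap α y⁆ := by
  induction x using assoc_induction with
  | h0 => rw [zero_lie, map_zero, zero_lie]
  | hadd u v hu hv => rw [add_lie, map_add, map_add, add_lie, hu, hv]
  | hcls i a ha =>
    induction y using assoc_induction with
    | h0 => rw [lie_zero, map_zero, lie_zero]
    | hadd u v hu hv => rw [lie_add, map_add, map_add, lie_add, hu, hv]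
    | hcls j b hb =>
      rw [lie_cls ha hb, assocMap_cls α (comm_mem ha hb), assocMap_cls α ha, assocMap_cls α hb,
        lie_cls (apply_mem_gam α ha) (apply_mem_gam α hb), map_commutatorElement]

end Cfsg.Agent.Lib.Kreknin
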